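import Mathlib
import Cfsg.Agent.H457.Odd.Crit

/-!
# More criteria for involutions normalising Sylow subgroups (helper457)

* `evIn_of_index`: a subgroup `H` with `p² ∤ |G : H|` all of whose elements of order `p` are real in `G`;
* `evIn_of_abelian`: abelian Sylow `p`-subgroups and a real element of order `p`;
* `evIn_of_ev`: `Ev p S → EvIn p S`;
* `evIn_of_sup`: a Sylow subgroup `R E` with `E` centralised and `R` normalised by an element of even order.
-/

set_option autoImplicit false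

open Subgroup

namespace Cfsg.Agent.H457.Odd

open Cfsg.Agent.H467.OddNorm Cfsg.Agent.H711.Crit

universe u

section

variable {p : ℕ} [hp : Fact p.Prime] {G : Type*} [Group G] [Finite G]

/-- `p² ∤ |G : H|` and the elements of order `p` of `H` are real (after helper712) -/
theorem evIn_of_index (hp2 : p ≠ 2) (H : Subgroup G) (hd : p ∣ Nat.card H) (hi : ¬ p ^ 2 ∣ H.index)
    (hreal : ∀ z ∈ H, orderOf z = p → IsConj z z⁻¹) : EvIn p G := by
  obtain ⟨P⟩ : Nonempty (Sylow p H) := inferInstance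
  obtain ⟨w, hwP, hwo, hwc⟩ := exists_central P hd
  have hPp : IsPGroup p ((P : Subgroup H).map H.subtype) := P.isPGroup'.map _
  obtain ⟨Q, hQ⟩ := hPp.exists_le_sylow
  have hPc : Nat.card ((P : Subgroup H).map H.subtype) = Nat.card (P : Subgroup H) :=
    card_map_of_injective (subtype_injective _)
  have hne : ∀ z : G, orderOf z = p → z ≠ 1 := by
    intro z hz h0
    rw [h0, orderOf_one] at hz
    exact hp.out.one_lt.ne hz
  -- the orders
  have hcard : Nat.card (Q : Subgroup G) ∣ p * Nat.card (P : Subgroup H) := by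
    rw [Q.card_eq_multiplicity, P.card_eq_multiplicity, ← pow_succ']
    refine pow_dvd_pow p ?_
    rw [← H.card_mul_index, Nat.factorization_mul Nat.card_pos.ne' (index_ne_zero_of_finite), Finsupp.add_apply]
    have : H.index.factorization p < 2 := by
      by_contra h0
      push Not at h0
      exact hi ((pow_dvd_pow p h0).trans (Nat.ordProj_dvd _ _))
    omega
  by_cases hA : ∀ c ∈ Q, (∀ y ∈ Q, y * c = c * y) → c ∈ (P : Subgroup H).map H.subtype
  · have hdG : p ∣ Nat.card G := hd.trans (card_subgroup_dvd_card H)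
    obtain ⟨c, hcQ, hco, hcc⟩ := exists_central Q hdG
    obtain ⟨h, -, rfl⟩ := hA c hcQ hcc
    exact evIn_of_real hp2 Q hcQ (hne _ hco) hcc (hreal _ h.2 hco)
  · push Not at hA
    obtain ⟨c, hcQ, hcc, hcP⟩ := hA
    have hwo' : orderOf (w : G) = p := by rw [orderOf_coe]; exact hwo
    have hwQ : (w : G) ∈ Q := hQ (mem_map_of_mem H.subtype hwP)
    -- the centralizer of `w` in `Q`
    set K : Subgroup G := (Q : Subgroup G) ⊓ centralizer ({(w : G)} : Set G) with hK
    have hPK : (P : Subgroup H).map H.subtype ≤ K := by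
      refine le_inf hQ ?_
      rintro _ ⟨x, hx, rfl⟩
      rw [mem_centralizer_singleton_iff]
      exact congrArg Subtype.val (hwc x hx)
    have hcK : c ∈ K := ⟨hcQ, mem_centralizer_singleton_iff.2 (hcc _ hwQ).symm⟩
    have hlt : (P : Subgroup H).map H.subtype < K := lt_of_le_of_ne hPK fun h0 => hcP (h0 ▸ hcK)
    have hKQ : K = (Q : Subgroup G) := by
      refine eq_of_le_of_card_ge inf_le_left ?_
      have h1 : Nat.card (P : Subgroup H) ∣ Nat.card K := hPc ▸ card_dvd_of_le hPK
      obtain ⟨m, hm⟩ := h1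
      obtain ⟨n, hn⟩ := (Q.isPGroup'.to_le (inf_le_left : K ≤ (Q : Subgroup G))).exists_card_eq
      have hm1 : m ≠ 1 := by
        rintro rfl
        apply hlt.ne
        refine eq_of_le_of_card_ge hPK ?_
        rw [hm, hPc, mul_one]
      have hpm : p ∣ m := by
        have h2 : m ∣ p ^ n := ⟨Nat.card (P : Subgroup H), by rw [← hn, hm, mul_comm]⟩
        obtain ⟨k, -, hk⟩ := (Nat.dvd_prime_pow hp.out).1 h2
        rw [hk]
        refine dvd_pow_self p fun h0 => hm1 ?_
        rw [hk, h0, pow_zero]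
      have h3 : p * Nat.card (P : Subgroup H) ∣ Nat.card K := by
        rw [hm, mul_comm]
        exact Nat.mul_dvd_mul_left _ hpm
      exact Nat.le_of_dvd Nat.card_pos (hcard.trans h3)
    refine evIn_of_real hp2 Q hwQ (hne _ hwo') (fun x hx => ?_) (hreal _ w.2 hwo')
    have hx' : x ∈ K := by rw [hKQ]; exact hx
    exact mem_centralizer_singleton_iff.1 hx'.2

/-- abelian Sylow subgroups and a real element of order `p` -/
theorem evIn_of_abelian (hp2 : p ≠ 2) (Q : Sylow p G) (hab : ∀ a ∈ Q, ∀ b ∈ Q, a * b = b * a) {x : G}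
    (hx : orderOf x = p) (hr : IsConj x x⁻¹) : EvIn p G := by
  have hxp : IsPGroup p (zpowers x) := IsPGroup.of_card (n := 1) (by rw [Nat.card_zpowers, hx, pow_one])
  obtain ⟨R, hR⟩ := hxp.exists_le_sylow
  have hxR : x ∈ R := hR (mem_zpowers x)
  obtain ⟨g, rfl⟩ := MulAction.exists_smul_eq G Q R
  have key : ∀ x : G, x ∈ g • Q ↔ g⁻¹ * x * g ∈ Q := by
    intro x
    rw [← SetLike.mem_coe, Sylow.coe_smul, Set.mem_smul_set_iff_inv_smul_mem]
    have : (MulAut.conj g)⁻¹ • x = g⁻¹ * x * g := by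
      rw [← map_inv, MulAut.smul_def, MulAut.conj_apply, inv_inv]
    rw [this, SetLike.mem_coe]
  refine evIn_of_real hp2 (g • Q) hxR ?_ (fun y hy => ?_) hr
  · rintro rfl
    rw [orderOf_one] at hx
    exact hp.out.one_lt.ne hx
  · have h1 := hab _ ((key y).1 hy) _ ((key x).1 hxR)
    have h2 : g * ((g⁻¹ * y * g) * (g⁻¹ * x * g)) * g⁻¹ = g * ((g⁻¹ * x * g) * (g⁻¹ * y * g)) * g⁻¹ := by rw [h1]
    have e1 : g * ((g⁻¹ * y * g) * (g⁻¹ * x * g)) * g⁻¹ = y * x := by group
    have e2 : g * ((g⁻¹ * x * g) * (g⁻¹ * y * g)) * g⁻¹ = x * y := by group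
    rwa [e1, e2] at h2

/-- a Sylow subgroup `P` all of whose elements are products `r c`, `r ∈ R ≤ P` normalised by `z`, `c ∈ P` centralised
by `z` -/
theorem evIn_of_fac {P : Subgroup G} (hP : IsPGroup p P) (hi : ¬ p ∣ P.index) {R : Subgroup G} (hRP : R ≤ P) {z : G}
    (hz : Even (orderOf z)) (hzR : ∀ r ∈ R, z * r * z⁻¹ ∈ R)
    (hfac : ∀ s ∈ P, ∃ r ∈ R, ∃ c ∈ P, c * z = z * c ∧ s = r * c) : EvIn p G := by
  refine evIn_of_even (hP.toSylow hi) hz fun s hs => ?_
  have hs' : s ∈ P := hs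
  show z * s * z⁻¹ ∈ P
  obtain ⟨r, hr, c, hc, hcz, rfl⟩ := hfac s hs'
  have e : z * (r * c) * z⁻¹ = z * r * z⁻¹ * (z * c * z⁻¹) := by group
  rw [e, ← hcz, mul_inv_cancel_right]
  exact mul_mem (hRP (hzR r hr)) hc

end

/-- `Ev p S → EvIn p S` -/
theorem evIn_of_ev {p : ℕ} [hp : Fact p.Prime] {S : Type u} [Group S] [Finite S] (hZ : center S = ⊥) (h : Ev p S) :
    EvIn p S := by
  obtain ⟨Q⟩ : Nonempty (Sylow p S) := inferInstance
  have hinj := conj_injective hZ
  have hi : ¬ p ∣ ((Q : Subgroup S).map (MulAut.conj : S →* MulAut S)).relIndex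
      (MulAut.conj : S →* MulAut S).range := by
    rw [MonoidHom.range_eq_map, relIndex_map_map]
    intro hd
    apply Q.not_dvd_index
    have h5 : ((Q : Subgroup S) ⊔ (MulAut.conj : S →* MulAut S).ker).relIndex (⊤ ⊔ (MulAut.conj : S →* MulAut S).ker) =
        ((Q : Subgroup S) ⊔ (MulAut.conj : S →* MulAut S).ker).index := by
      rw [top_sup_eq, relIndex_top_right]
    rw [h5] at hd
    exact hd.trans (index_dvd_of_le le_sup_left)
  obtain ⟨t, ht, hn⟩ := h.all (Q := (Q : Subgroup S).map (MulAut.conj : S →* MulAut S)) (Q.isPGroup'.map _) hi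
  refine evIn_of_even Q (by rw [ht]; exact even_two) fun x hx => ?_
  obtain ⟨y, hy, hxy⟩ := (mem_normalizer_iff.1 hn _).1 (mem_map_of_mem (MulAut.conj : S →* MulAut S) hx)
  rw [← map_inv, ← map_mul, ← map_mul] at hxy
  rw [← hinj hxy]
  exact hy

end Cfsg.Agent.H457.Odd
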