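import Mathlib
import Cfsg.Agent.H794.MonSevenTop
import Cfsg.Agent.H457.Odd.Index

/-!
# S3855, `p = 7`: the Monster, the abstract part (helper457)

The Sylow 7-subgroup `R E` of helper794 is normalised by the involution `z`: `z` normalises `R` and centralises `E`.
-/

set_option autoImplicit false
set_option linter.unusedSectionVars false

namespace Cfsg.Agent.H457.Odd.MSevenCore

open Subgroup Cfsg Cfsg.Agent.H794.MonCore Cfsg.Agent.H794.MonSec Cfsg.Agent.H794.MonSevenLoc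
  Cfsg.Agent.H794.MonSevenBig Cfsg.Agent.H467.OddNorm Cfsg.Agent.H457.Odd

universe u

variable {G : Type u} [Group G] [Finite G] {x z : G}

/-- the subgroups `R` and `E`, `R` invariant under `z` -/
theorem exists_big_inv (h : Loc x z) (h7 : ¬ 7 ^ 7 ∣ Nat.card G)
    (h3 : 7 ^ 3 ∣ Nat.card ↥(centralizer ({x} : Set G))) :
    ∃ R E k, Big x z R E k ∧ ∀ r ∈ R, z * r * z⁻¹ ∈ R := by
  have hf7 := prime_seven
  have hxo : Odd (orderOf x) := by rw [h.hx]; decide
  obtain ⟨N, hN⟩ := exists_cfg h.hz hxo h.zx h.only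
  obtain ⟨R, hR⟩ := hN.exists_sylow h.hz h.zx 7
  have hxR := hN.mem_syl hR h.xP
  have hne : ∃ r ∈ R, r ∉ zpowers x := by
    by_contra hcon
    push Not at hcon
    have hRx : R = zpowers x := le_antisymm hcon (zpowers_le.2 hxR)
    have h1 : ¬ 7 ^ (1 + 1) ∣ Nat.card ↥N := fun h1 => by
      have h2 := hR.dvd 2 h1
      rw [hRx, card_zx h] at h2
      norm_num at h2
    have h2 := not_pow_dvd_mul (by norm_num : Nat.Prime 7) Nat.card_pos.ne' Nat.card_pos.ne' h1 h.cGa
    apply h2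
    rw [Ga, ← hN.card_cent]
    have h4 : 7 ∣ Nat.card ↥(N ⊓ (centralizer ({x} : Set G) ⊓ centralizer ({z} : Set G))) := by
      rw [← card_zx h]
      exact Subgroup.card_dvd_of_le (zpowers_le.2 (mem_inf.2 ⟨hN.mem, h.xGa⟩))
    exact Nat.mul_dvd_mul h3 h4
  obtain ⟨E, k, hb⟩ := (Dat.mk h hN hR hne).exists_big h7
  exact ⟨R, E, k, hb, hR.inv⟩

/-- an involution normalises a Sylow 7-subgroup -/
theorem evIn_of_hyp (h : Hyp z) : EvIn 7 G := by
  have hf7 := prime_seven
  obtain ⟨x, hL, h3⟩ := h.exists_loc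
  obtain ⟨R, E, k, hb, hzR⟩ := exists_big_inv hL h.h7 h3
  have hidx : ¬ 7 ∣ (R ⊔ E).index := by
    intro h1
    apply h.h7
    rw [← (R ⊔ E).card_mul_index, hb.card_S hL, pow_succ]
    exact Nat.mul_dvd_mul_left _ h1
  refine evIn_of_fac (hb.SP hL) hidx (R := R) le_sup_left (z := z) (by rw [hL.hz]; exact even_two) hzR fun s hs => ?_
  obtain ⟨r, hr, e, he, rfl⟩ := exists_mul_of_norm hb.ER hs
  exact ⟨r, hr, e, mem_sup_right he, (mem_Ga.1 (hb.EG he)).2, rfl⟩

end Cfsg.Agent.H457.Odd.MSevenCore
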