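import Mathlib
import Cfsg.Prelude.Def_Classification2
import Cfsg.Agent.H457.Odd.Crit
import Cfsg.Agent.CpAutCoOneFive.Cls
import Cfsg.Agent.S0397

/-!
# S3855, `p = 5`: the Conway group `Co₁` (helper457)

The centre `⟨c⟩` of a Sylow 5-subgroup is inverted by `t²`, as `t c t⁻¹ = c²`.
-/

set_option autoImplicit false

open Subgroup

namespace Cfsg.Agent.H457.Odd.RowCo1

open Cfsg Cfsg.Agent.H467.OddNorm Cfsg.Agent.H457.Odd
open Cfsg.Agent.CpAutCoOneFive.Elem Cfsg.Agent.CpAutCoOneFive.Nf Cfsg.Agent.CpAutCoOneFive.Cls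
open Cfsg.Agent.CpAutBig

theorem comm_c {x : Co0} (hx : x ∈ P4 quad) : x * c = c * x := by
  obtain ⟨i, k, l, j, rfl⟩ := hx
  unfold N E pw
  have ha : Commute a c := ac
  have hb : Commute b c := bc
  have hd : Commute d c := dc
  exact ((((ha.pow_left _).mul_left ((Commute.refl c).pow_left _)).mul_left (hd.pow_left _)).mul_left (hb.pow_left _)).eq

theorem c_real : (t * t) * c * (t * t)⁻¹ = c⁻¹ := by
  have h1 : t * c * t⁻¹ = c ^ 2 := mul_inv_eq_iff_eq_mul.2 tc
  have e : (t * t) * c * (t * t)⁻¹ = t * (t * c * t⁻¹) * t⁻¹ := by group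
  have e2 : t * c ^ 2 * t⁻¹ = (t * c * t⁻¹) ^ 2 := conj_pow.symm
  rw [e, h1, e2, h1, ← pow_mul, eq_inv_iff_mul_eq_one, ← pow_succ]
  exact c_pow

theorem c_notMem : c ∉ center Co0 := by
  intro h
  have h1 : t * c = c * t := (mem_center_iff.1 h) t
  rw [tc, pow_two, mul_assoc] at h1
  have h2 : c * t = t := mul_left_cancel h1
  have h3 : c = 1 := mul_eq_right.1 h2
  have h4 := orderOf_c
  rw [h3, orderOf_one] at h4
  norm_num at h4

theorem evIn_co1 : EvIn 5 Cfsg.Spor.Co1 := by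
  have hfin : Finite Co0 := CoZero.finite_co0
  have hp : Fact (Nat.Prime 5) := ⟨Nat.prime_five⟩
  let q : Co0 →* Cfsg.Spor.Co1 := QuotientGroup.mk' (center Co0)
  have hq : Function.Surjective q := QuotientGroup.mk'_surjective _
  have hidx : ¬ 5 ∣ ((P4 quad).map q).index := by
    intro h
    have h1 := h.trans (index_map_dvd (P4 quad) hq)
    have h2 := (P4 quad).card_mul_index
    rw [card_P4, S0397.result] at h2
    obtain ⟨k, hk⟩ := h1
    rw [hk] at h2
    omega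
  have hcP : c ∈ P4 quad := ⟨0, 1, 0, 0, by unfold N; rw [E_c, pw_zero, mul_one]⟩
  refine evIn_of_real (by norm_num) ((isPGroup_P4.map q).toSylow hidx) (z := q c) ⟨c, hcP, rfl⟩ ?_ ?_ ?_
  · intro h1
    exact c_notMem ((QuotientGroup.eq_one_iff c).1 h1)
  · rintro _ ⟨x, hx, rfl⟩
    rw [← map_mul, ← map_mul, comm_c hx]
  · refine isConj_iff.2 ⟨q (t * t), ?_⟩
    rw [← map_mul, ← map_inv, ← map_mul, c_real, map_inv]

theorem co1_five {K : Type*} [Group K] (h : Spor.IsoCo1 K) : EvIn 5 K := by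
  have hfin : Finite Co0 := CoZero.finite_co0
  have hp : Fact (Nat.Prime 5) := ⟨Nat.prime_five⟩
  have hfin1 : Finite Cfsg.Spor.Co1 := Quotient.finite _
  obtain ⟨e⟩ := h
  exact evIn_co1.congr e.symm

end Cfsg.Agent.H457.Odd.RowCo1
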