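import Mathlib
import Cfsg.Prelude.Def_Classification2
import Cfsg.Agent.H794.MonSeven
import Cfsg.Agent.H457.Odd.MSevenCore

/-!
# S3855, `p = 7`: the Monster (helper457)
-/

set_option autoImplicit false
set_option maxRecDepth 100000

namespace Cfsg.Agent.H457.Odd.RowMSeven

open Cfsg Cfsg.Agent.MonsterX Cfsg.Agent.H467.OddNorm Cfsg.Agent.H457.Odd

theorem evIn_model : EvIn 7 ↥InstData.M.G := by
  have hfin := MFive.Row.finite_model
  exact MSevenCore.evIn_of_hyp H794.MonSeven.hyp_model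

/-- **The Monster, `p = 7`.** -/
theorem m_seven {X : Type*} [Group X] (h : Cfsg.Spor.IsoM X) : EvIn 7 X := by
  have hfin := MFive.Row.finite_model
  have hf7 : Fact (Nat.Prime 7) := H794.MonSevenLoc.prime_seven
  obtain ⟨f⟩ := h
  obtain ⟨f'⟩ := Cfsg.Agent.MonsterP.Equiv.equiv
  exact evIn_model.congr (f.trans f').symm

end Cfsg.Agent.H457.Odd.RowMSeven
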