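import Mathlib
import Cfsg.Agent.H457.Odd.Crit

/-!
# Involutions normalising Sylow subgroups of order at most `p³` (helper457)

* `evIn_of_section`: `W ≤ S` normalised by a Sylow subgroup `X` and by `g`, `x ∉ W` a `p`-element centralised modulo `W`
  by `X` and inverted modulo `W` by `g`;
* `evIn_of_cube`: `p⁴ ∤ |S|` and some element of order `p` is real.
-/

set_option autoImplicit false

open Subgroup

namespace Cfsg.Agent.H457.Odd

open Cfsg.Agent.H467.OddNorm Cfsg.Agent.H711.Crit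

variable {p : ℕ}

section
variable {S : Type*} [Group S]

/-- a real element modulo a subgroup normalised by a Sylow subgroup -/
theorem evIn_of_section [Finite S] [hp : Fact p.Prime] (hp2 : p ≠ 2) (X : Subgroup S) (hX : ¬ p ∣ X.index)
    (W : Subgroup S) {x g : S} (hXW : ∀ s ∈ X, ∀ w ∈ W, s * w * s⁻¹ ∈ W) (hgW : ∀ w ∈ W, g * w * g⁻¹ ∈ W)
    (hxW : ∀ w ∈ W, x * w * x⁻¹ ∈ W) (hx : x ∉ W) (hxp : ∃ k : ℕ, x ^ p ^ k = 1)
    (hXx : ∀ s ∈ X, s * x * s⁻¹ * x⁻¹ ∈ W) (hgx : g * x * g⁻¹ * x ∈ W) : EvIn p S := by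
  classical
  set N : Subgroup S := normalizer (W : Set S) with hN
  have hXN : X ≤ N := fun s hs => mem_normalizer_of_forall (hXW s hs)
  have hgN : g ∈ N := mem_normalizer_of_forall hgW
  have hxN : x ∈ N := mem_normalizer_of_forall hxW
  have hNi : ¬ p ∣ N.index := fun h => hX (h.trans (index_dvd_of_le hXN))
  refine evIn_of_subgroup N hNi ?_
  have hnorm : (W.subgroupOf N).Normal := normal_in_normalizer
  let f : ↥N →* ↥N ⧸ W.subgroupOf N := QuotientGroup.mk' (W.subgroupOf N)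
  have hf : Function.Surjective f := QuotientGroup.mk'_surjective _
  refine evIn_of_surjective hp2 f hf ?_
  have hfW : ∀ n : ↥N, f n = 1 ↔ (n : S) ∈ W := by
    intro n
    rw [QuotientGroup.mk'_apply, QuotientGroup.eq_one_iff, mem_subgroupOf]
  let x' : ↥N := ⟨x, hxN⟩
  let g' : ↥N := ⟨g, hgN⟩
  refine EvIn.of_real hp2 (z := f x') (g := f g') ?_ ?_ ?_ ?_
  · intro h
    exact hx ((hfW x').1 h)
  · obtain ⟨k, hk⟩ := hxp
    refine ⟨k, ?_⟩
    rw [← map_pow]
    have : x' ^ p ^ k = 1 := Subtype.ext hk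
    rw [this, map_one]
  · -- the centralizer contains the image of `X`
    have hle : (X.subgroupOf N).map f ≤ centralizer ({f x'} : Set (↥N ⧸ W.subgroupOf N)) := by
      rintro _ ⟨s, hs, rfl⟩
      rw [mem_centralizer_singleton_iff]
      have h1 : f (s * x' * s⁻¹ * x'⁻¹) = 1 := (hfW _).2 (hXx s hs)
      rw [map_mul, map_mul, map_mul, map_inv, map_inv] at h1
      have h2 := mul_inv_eq_one.1 h1
      exact mul_inv_eq_iff_eq_mul.1 h2
    intro h
    have h1 : (centralizer ({f x'} : Set (↥N ⧸ W.subgroupOf N))).index ∣ ((X.subgroupOf N).map f).index :=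
      index_dvd_of_le hle
    have h2 : ((X.subgroupOf N).map f).index ∣ (X.subgroupOf N).index := index_map_dvd _ hf
    have h3 : (X.subgroupOf N).index ∣ X.index := by
      rw [← relIndex_mul_index hXN]
      exact Dvd.intro _ rfl
    exact hX (h.trans (h1.trans (h2.trans h3)))
  · have h1 : f (g' * x' * g'⁻¹ * x') = 1 := (hfW _).2 hgx
    rw [map_mul, map_mul, map_mul, map_inv] at h1
    exact eq_inv_of_mul_eq_one_left h1

/-- nonabelian groups of order `p³` -/
theorem center_cube {P : Type*} [Group P] [Finite P] [hp : Fact p.Prime] (hP : Nat.card P = p ^ 3)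
    (hna : ¬ ∀ a b : P, a * b = b * a) :
    Nat.card (center P) = p ∧ ∀ a b : P, a * b * a⁻¹ * b⁻¹ ∈ center P := by
  have hpp : IsPGroup p P := IsPGroup.of_card hP
  have hdvd : Nat.card (center P) ∣ p ^ 3 := hP ▸ card_subgroup_dvd_card _
  obtain ⟨k, hk, hkc⟩ := (Nat.dvd_prime_pow hp.out).1 hdvd
  have hnt : Nontrivial P := by
    by_contra h
    rw [not_nontrivial_iff_subsingleton] at h
    exact hna fun a b => Subsingleton.elim _ _
  have hc1 : Nat.card (center P) ≠ 1 := by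
    have := hpp.center_nontrivial
    exact (Finite.one_lt_card (α := ↥(center P))).ne'
  have hidx : Nat.card (P ⧸ center P) * p ^ k = p ^ 3 := by
    rw [← hkc, ← hP]
    exact (card_eq_card_quotient_mul_card_subgroup _).symm
  have hpos : 0 < p := hp.out.pos
  have hk1 : k = 1 := by
    interval_cases k
    · rw [pow_zero] at hkc
      exact absurd hkc hc1
    · rfl
    · exfalso
      have h1 : Nat.card (P ⧸ center P) = p := by
        have e : p ^ 3 = p * p ^ 2 := by ring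
        rw [e] at hidx
        exact Nat.eq_of_mul_eq_mul_right (pow_pos hpos 2) hidx
      have h2 : IsCyclic (P ⧸ center P) := isCyclic_of_prime_card h1
      apply hna
      exact ((QuotientGroup.mk' (center P)).isMulCommutative_of_isCyclic_of_ker_le_center
        (by rw [QuotientGroup.ker_mk'])).is_comm.comm
    · exfalso
      have h1 : center P = ⊤ := eq_top_of_card_eq _ (by rw [hkc, hP])
      exact hna fun a b => (mem_center_iff.1 (h1 ▸ mem_top b : b ∈ center P)) a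
  subst hk1
  rw [pow_one] at hkc
  refine ⟨hkc, fun a b => ?_⟩
  have h1 : Nat.card (P ⧸ center P) = p ^ 2 := by
    have e : p ^ 3 = p ^ 2 * p ^ 1 := by ring
    rw [e] at hidx
    exact Nat.eq_of_mul_eq_mul_right (pow_pos hpos 1) hidx
  have h2 := (IsPGroup.isMulCommutative_of_card_eq_prime_sq h1).is_comm.comm (QuotientGroup.mk a : P ⧸ center P)
    (QuotientGroup.mk b)
  rw [← QuotientGroup.eq_one_iff, QuotientGroup.mk_mul, QuotientGroup.mk_mul, QuotientGroup.mk_mul,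
    QuotientGroup.mk_inv, QuotientGroup.mk_inv, h2]
  group

/-- two transvections -/
theorem real_of_transvections {z y s t : S} (hzy : z * y = y * z) (hsz : s * z * s⁻¹ = z) (hsy : s * y * s⁻¹ = y * z)
    (hty : t * y * t⁻¹ = y) (htz : t * z * t⁻¹ = z * y⁻¹) : IsConj z z⁻¹ := by
  rw [isConj_iff]
  refine ⟨(s * t * s) * (s * t * s), ?_⟩
  have hc : Commute z y := hzy
  have h1 : ∀ a : S, (s * t * s) * a * (s * t * s)⁻¹ = s * (t * (s * a * s⁻¹) * t⁻¹) * s⁻¹ := by
    intro a; group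
  have h2 : (s * t * s) * z * (s * t * s)⁻¹ = y⁻¹ := by
    rw [h1, hsz, htz]
    have : s * (z * y⁻¹) * s⁻¹ = (s * z * s⁻¹) * (s * y * s⁻¹)⁻¹ := by group
    rw [this, hsz, hsy, mul_inv_rev, mul_inv_cancel_left]
  have h3 : (s * t * s) * y⁻¹ * (s * t * s)⁻¹ = z⁻¹ := by
    have e : (s * t * s) * y⁻¹ * (s * t * s)⁻¹ = ((s * t * s) * y * (s * t * s)⁻¹)⁻¹ := by group
    rw [e, h1, hsy]
    have e2 : t * (y * z) * t⁻¹ = (t * y * t⁻¹) * (t * z * t⁻¹) := by group
    rw [e2, hty, htz, hc.inv_right.eq, mul_inv_cancel_left, hsz]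
  have e : (s * t * s) * (s * t * s) * z * ((s * t * s) * (s * t * s))⁻¹
      = (s * t * s) * ((s * t * s) * z * (s * t * s)⁻¹) * (s * t * s)⁻¹ := by group
  rw [e, h2, h3]

/-- **Sylow `p`-subgroups of order at most `p³` and a real element of order `p`** -/
theorem evIn_of_cube [Finite S] [hp : Fact p.Prime] (hp2 : p ≠ 2) (hc : ¬ p ^ 4 ∣ Nat.card S) {x : S}
    (hx : orderOf x = p) (hr : IsConj x x⁻¹) : EvIn p S := by
  classical
  have hx1 : x ≠ 1 := by
    rintro rfl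
    rw [orderOf_one] at hx
    exact hp.out.one_lt.ne hx
  have hxp1 : x ^ p ^ 1 = 1 := by rw [pow_one, ← hx, pow_orderOf_eq_one]
  set C : Subgroup S := centralizer ({x} : Set S) with hC
  have hCm : ∀ s, s ∈ C ↔ s * x = x * s := fun s => mem_centralizer_singleton_iff
  obtain ⟨E₀⟩ : Nonempty (Sylow p ↥C) := inferInstance
  set E : Subgroup S := (E₀ : Subgroup ↥C).map C.subtype with hE
  have hEp : IsPGroup p ↥E := E₀.isPGroup'.map _
  have hEC : ∀ y ∈ E, y * x = x * y := by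
    rintro _ ⟨y, -, rfl⟩
    exact (hCm _).1 y.2
  obtain ⟨X, hEX⟩ := hEp.exists_le_sylow
  have hxE : x ∈ E := by
    have h1 : (⟨x, (hCm x).2 rfl⟩ : ↥C) ∈ E₀ := by
      refine mem_of_normalizes E₀ (fun y hy => ?_) ⟨1, Subtype.ext hxp1⟩
      have : (⟨x, (hCm x).2 rfl⟩ : ↥C) * y * (⟨x, (hCm x).2 rfl⟩ : ↥C)⁻¹ = y := by
        apply Subtype.ext
        show x * (y : S) * x⁻¹ = y
        rw [← (hCm _).1 y.2, mul_inv_cancel_right]
      rw [this]
      exact hy
    exact ⟨_, h1, rfl⟩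
  by_cases hcen : ∀ y ∈ X, y * x = x * y
  · exact evIn_of_real hp2 X (hEX hxE) hx1 hcen hr
  have hna : ¬ ∀ a b : ↥(X : Subgroup S), a * b = b * a := by
    intro h
    exact hcen fun y hy => congrArg Subtype.val (h ⟨y, hy⟩ ⟨x, hEX hxE⟩)
  -- `E = C_X(x)`
  have hmax : ∀ y ∈ X, y * x = x * y → y ∈ E := by
    intro y hy hyx
    have h1 : IsPGroup p ↥((X : Subgroup S).subgroupOf C) := X.isPGroup'.comap_of_injective _ (subtype_injective _)
    have h2 : (E₀ : Subgroup ↥C) ≤ (X : Subgroup S).subgroupOf C := fun e he => hEX ⟨e, he, rfl⟩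
    have h3 := E₀.is_maximal' h1 h2
    have h4 : (⟨y, (hCm y).2 hyx⟩ : ↥C) ∈ (X : Subgroup S).subgroupOf C := hy
    rw [h3] at h4
    exact ⟨_, h4, rfl⟩
  -- the order of `X`
  have hXc : Nat.card ↥(X : Subgroup S) = p ^ 3 := by
    obtain ⟨n, hn⟩ := IsPGroup.iff_card.1 X.isPGroup'
    have h1 : n ≤ 3 := by
      by_contra h
      push Not at h
      exact hc ((pow_dvd_pow p h).trans (hn ▸ card_subgroup_dvd_card _))
    have h2 : 3 ≤ n := by
      by_contra h
      push Not at h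
      apply hna
      have h3 : n = 0 ∨ n = 1 ∨ n = 2 := by omega
      rcases h3 with rfl | rfl | rfl
      · rw [pow_zero] at hn
        have := (Nat.card_eq_one_iff_unique.1 hn).1
        exact fun a b => Subsingleton.elim _ _
      · rw [pow_one] at hn
        have : IsCyclic ↥(X : Subgroup S) := isCyclic_of_prime_card hn
        exact fun a b => (IsCyclic.isMulCommutative (α := ↥(X : Subgroup S))).is_comm.comm a b
      · exact fun a b => (IsPGroup.isMulCommutative_of_card_eq_prime_sq hn).is_comm.comm a b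
    rw [hn, le_antisymm h1 h2]
  obtain ⟨hZc, hcomm⟩ := center_cube hXc hna
  have hd : p ∣ Nat.card S := hx ▸ orderOf_dvd_natCard x
  obtain ⟨z, hzX, hz, hzc⟩ := exists_central X hd
  have hzZ : ∀ y (hy : y ∈ X), (⟨y, hy⟩ : ↥(X : Subgroup S)) ∈ center ↥(X : Subgroup S) → y ∈ zpowers z := by
    intro y hy hyc
    have h1 : zpowers (⟨z, hzX⟩ : ↥(X : Subgroup S)) = center ↥(X : Subgroup S) := by
      refine eq_of_le_of_card_ge ?_ ?_
      · rw [zpowers_le, mem_center_iff]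
        exact fun a => Subtype.ext (hzc a a.2)
      · rw [hZc, Nat.card_zpowers, orderOf_mk, hz]
    rw [← h1] at hyc
    obtain ⟨i, hi⟩ := hyc
    exact ⟨i, congrArg Subtype.val hi⟩
  have hcz : ∀ a ∈ X, ∀ b ∈ X, a * b * a⁻¹ * b⁻¹ ∈ zpowers z := by
    intro a ha b hb
    exact hzZ _ (mul_mem (mul_mem (mul_mem ha hb) (inv_mem ha)) (inv_mem hb)) (hcomm ⟨a, ha⟩ ⟨b, hb⟩)
  have hxz : x ∉ zpowers z := by
    rintro ⟨i, rfl⟩
    exact hcen fun y hy => ((show Commute y z from hzc y hy).zpow_right i).eq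
  have hzE : z ∈ E := hmax z hzX (hzc x (hEX hxE)).symm
  -- transvections
  have htr : ∀ y ∈ X, y ∉ zpowers z → ∃ s ∈ X, s * y * s⁻¹ = y * z := by
    intro y hy hyz
    have h1 : ∃ s ∈ X, s * y * s⁻¹ * y⁻¹ ≠ 1 := by
      by_contra h
      push Not at h
      refine hyz (hzZ y hy ?_)
      rw [mem_center_iff]
      exact fun a => Subtype.ext (mul_inv_eq_iff_eq_mul.1 (mul_inv_eq_one.1 (h a a.2)))
    obtain ⟨s, hs, hs1⟩ := h1
    obtain ⟨i, hi⟩ := hcz s hs y hy
    have hi' : z ^ i = s * y * s⁻¹ * y⁻¹ := hi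
    -- `z` is a power of `z ^ i`
    have h2 : z ∈ zpowers (z ^ i) := by
      have h3 : Nat.card ↥(zpowers z) = p := by rw [Nat.card_zpowers, hz]
      have h4 : zpowers (z ^ i) = zpowers z := by
        refine eq_of_le_of_card_ge (by rw [zpowers_le]; exact ⟨i, rfl⟩) ?_
        rw [h3, Nat.card_zpowers]
        have h5 : orderOf (z ^ i) ∣ p := hz ▸ orderOf_dvd_of_mem_zpowers ⟨i, rfl⟩
        rcases (Nat.dvd_prime hp.out).1 h5 with h6 | h6
        · rw [orderOf_eq_one_iff, hi'] at h6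
          exact absurd h6 hs1
        · rw [h6]
      rw [h4]
      exact mem_zpowers z
    obtain ⟨j, hj⟩ := (mem_powers_iff_mem_zpowers.2 h2)
    have hj' : (z ^ i) ^ j = z := hj
    have hzi : ∀ a ∈ X, Commute a (z ^ i) := fun a ha => (show Commute a z from hzc a ha).zpow_right i
    have hstep : ∀ n : ℕ, s ^ n * y * (s ^ n)⁻¹ = y * (z ^ i) ^ n := by
      intro n
      induction n with
      | zero => simp
      | succ n ih =>
        have h5 : s * y * s⁻¹ = y * z ^ i := by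
          rw [hi']
          have h6 := hzi y hy
          rw [hi'] at h6
          rw [h6.eq, inv_mul_cancel_right]
        have h7 : s * (z ^ i) ^ n * s⁻¹ = (z ^ i) ^ n := by
          rw [((hzi s hs).pow_right n).eq, mul_inv_cancel_right]
        calc s ^ (n + 1) * y * (s ^ (n + 1))⁻¹ = s * (s ^ n * y * (s ^ n)⁻¹) * s⁻¹ := by rw [pow_succ']; group
          _ = (s * y * s⁻¹) * (s * (z ^ i) ^ n * s⁻¹) := by rw [ih]; group
          _ = y * (z ^ i) ^ (n + 1) := by rw [h5, h7, pow_succ', mul_assoc]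
    exact ⟨s ^ j, pow_mem hs j, by rw [hstep, hj']⟩
  -- the inverting element may be taken in the normalizer of `E`
  obtain ⟨g₀, hg₀⟩ := isConj_iff.1 hr
  have hg₀C : ∀ y ∈ C, g₀ * y * g₀⁻¹ ∈ C := by
    intro y hy
    rw [hCm] at hy ⊢
    have h1 : x⁻¹ = g₀ * x * g₀⁻¹ := hg₀.symm
    have h2 : x = g₀ * x⁻¹ * g₀⁻¹ := by
      have : (g₀ * x * g₀⁻¹)⁻¹ = g₀ * x⁻¹ * g₀⁻¹ := by group
      rw [← this, hg₀, inv_inv]
    have h3 : y * x⁻¹ = x⁻¹ * y := by
      have : Commute y x := hy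
      exact this.inv_right.eq
    calc g₀ * y * g₀⁻¹ * x = g₀ * y * g₀⁻¹ * (g₀ * x⁻¹ * g₀⁻¹) := by rw [← h2]
      _ = g₀ * (y * x⁻¹) * g₀⁻¹ := by group
      _ = g₀ * (x⁻¹ * y) * g₀⁻¹ := by rw [h3]
      _ = (g₀ * x⁻¹ * g₀⁻¹) * (g₀ * y * g₀⁻¹) := by group
      _ = x * (g₀ * y * g₀⁻¹) := by rw [← h2]
  obtain ⟨g, hgE, hgx⟩ : ∃ g : S, (∀ y ∈ E, g * y * g⁻¹ ∈ E) ∧ g * x * g⁻¹ = x⁻¹ := by
    let E₂ : Subgroup S := E.map (MulAut.conj g₀).toMonoidHom
    have hE₂C : E₂ ≤ C := by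
      rintro _ ⟨y, hy, rfl⟩
      exact hg₀C y ((hCm y).2 (hEC y hy))
    have hc2 : Nat.card (E₂.subgroupOf C) = p ^ (Nat.card C).factorization p := by
      rw [Nat.card_congr (subgroupOfEquivOfLe hE₂C).toEquiv,
        Nat.card_congr (E.equivMapOfInjective _ (MulAut.conj g₀).injective).toEquiv.symm,
        ← E₀.card_eq_multiplicity]
      exact (Nat.card_congr ((E₀ : Subgroup C).equivMapOfInjective _ C.subtype_injective).toEquiv).symm
    obtain ⟨m, hm⟩ := MulAction.exists_smul_eq C (Sylow.ofCard _ hc2) E₀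
    refine ⟨m * g₀, fun y hy => ?_, ?_⟩
    · have h9 : (⟨g₀ * y * g₀⁻¹, hg₀C y ((hCm y).2 (hEC y hy))⟩ : C) ∈ Sylow.ofCard _ hc2 := by
        show _ ∈ E₂.subgroupOf C
        rw [mem_subgroupOf]
        exact ⟨y, hy, rfl⟩
      have h10 : m * ⟨g₀ * y * g₀⁻¹, hg₀C y ((hCm y).2 (hEC y hy))⟩ * m⁻¹ ∈ E₀ := by
        rw [← hm]
        show _ ∈ ((m • Sylow.ofCard _ hc2 : Sylow p C) : Set C)
        rw [Sylow.coe_smul]
        exact ⟨_, h9, rfl⟩
      refine ⟨_, h10, ?_⟩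
      show (m : S) * (g₀ * y * g₀⁻¹) * (m : S)⁻¹ = _
      group
    · have h11 : (m : S) * x = x * m := (hCm _).1 m.2
      have h12 : Commute (m : S) x⁻¹ := (show Commute (m : S) x from h11).inv_right
      calc (m : S) * g₀ * x * ((m : S) * g₀)⁻¹ = m * (g₀ * x * g₀⁻¹) * (m : S)⁻¹ := by group
        _ = x⁻¹ := by rw [hg₀, h12.eq, mul_inv_cancel_right]
  -- the two cases
  by_cases hgz : g * z * g⁻¹ ∈ zpowers z
  · -- the section `⟨x, z⟩ / ⟨z⟩`
    refine evIn_of_section hp2 (X : Subgroup S) X.not_dvd_index (zpowers z) (x := x) (g := g) ?_ ?_ ?_ hxz ⟨1, hxp1⟩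
      (fun s hs => hcz s hs x (hEX hxE)) (by rw [hgx, inv_mul_cancel]; exact one_mem _)
    · rintro s hs _ ⟨i, rfl⟩
      have : Commute s (z ^ i) := (show Commute s z from hzc s hs).zpow_right i
      show s * z ^ i * s⁻¹ ∈ _
      rw [this.eq, mul_inv_cancel_right]
      exact ⟨i, rfl⟩
    · rintro _ ⟨i, rfl⟩
      show g * z ^ i * g⁻¹ ∈ _
      rw [← conj_zpow]
      exact zpow_mem hgz i
    · rintro _ ⟨i, rfl⟩
      have : Commute x (z ^ i) := (show Commute x z from hzc x (hEX hxE)).zpow_right i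
      show x * z ^ i * x⁻¹ ∈ _
      rw [this.eq, mul_inv_cancel_right]
      exact ⟨i, rfl⟩
  · -- `z` is real
    refine evIn_of_real hp2 X hzX (fun h0 => ?_) hzc ?_
    · rw [h0, orderOf_one] at hz
      exact hp.out.one_lt.ne hz
    set y := g * z * g⁻¹ with hy
    have hyE : y ∈ E := hgE z hzE
    have hyX : y ∈ X := hEX hyE
    -- `g⁻¹ z g ∈ E`
    have hgE' : ∀ a ∈ E, g⁻¹ * a * g ∈ E := by
      intro a ha
      have h1 : g ∈ normalizer (E : Set S) := mem_normalizer_of_forall hgE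
      have h2 := (mem_normalizer_iff.1 (inv_mem h1) a).1 ha
      rwa [inv_inv] at h2
    have hy2 : g⁻¹ * z * g ∉ zpowers z := by
      rintro ⟨i, hi⟩
      have hi' : z ^ i = g⁻¹ * z * g := hi
      -- `y ^ i = z`
      have h1 : y ^ i = z := by
        rw [hy, conj_zpow, hi']; group
      have h2 : zpowers z = zpowers y := by
        refine eq_of_le_of_card_ge (by rw [zpowers_le]; exact ⟨i, h1⟩) (le_of_eq ?_)
        rw [Nat.card_zpowers, Nat.card_zpowers, hy]
        exact orderOf_injective (MulAut.conj g).toMonoidHom (MulAut.conj g).injective z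
      exact hgz (h2 ▸ mem_zpowers y)
    obtain ⟨s, hs, hsy⟩ := htr y hyX hgz
    obtain ⟨t₀, ht₀, ht₀y⟩ := htr _ (hEX (hgE' z hzE)) hy2
    -- `t = (g t₀ g⁻¹)⁻¹`
    have h1 : (g * t₀ * g⁻¹) * y * (g * t₀ * g⁻¹)⁻¹ = y := by
      have : (g * t₀ * g⁻¹) * y * (g * t₀ * g⁻¹)⁻¹ = g * (t₀ * z * t₀⁻¹) * g⁻¹ := by rw [hy]; group
      rw [this, hzc t₀ ht₀, mul_inv_cancel_right]
    have h2 : (g * t₀ * g⁻¹) * z * (g * t₀ * g⁻¹)⁻¹ = z * y := by
      have : (g * t₀ * g⁻¹) * z * (g * t₀ * g⁻¹)⁻¹ = g * (t₀ * (g⁻¹ * z * g) * t₀⁻¹) * g⁻¹ := by group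
      rw [this, ht₀y, hy]; group
    refine real_of_transvections (y := y) (s := s) (t := (g * t₀ * g⁻¹)⁻¹) (hzc y hyX).symm ?_ hsy ?_ ?_
    · rw [hzc s hs, mul_inv_cancel_right]
    · rw [inv_inv]
      nth_rewrite 1 [← h1]
      group
    · rw [inv_inv]
      have h3 : (g * t₀ * g⁻¹)⁻¹ * (z * y) * (g * t₀ * g⁻¹) = z := by rw [← h2]; group
      have h4 : (g * t₀ * g⁻¹)⁻¹ * y * (g * t₀ * g⁻¹) = y := by
        nth_rewrite 1 [← h1]
        group
      have h5 : (g * t₀ * g⁻¹)⁻¹ * (z * y) * (g * t₀ * g⁻¹)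
          = (g * t₀ * g⁻¹)⁻¹ * z * (g * t₀ * g⁻¹) * ((g * t₀ * g⁻¹)⁻¹ * y * (g * t₀ * g⁻¹)) := by group
      rw [h5, h4] at h3
      exact eq_mul_inv_of_mul_eq h3

end

end Cfsg.Agent.H457.Odd
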